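import Mathlib
import Cfsg.Agent.H602.Small.Trace
import Cfsg.Agent.H613.RankPos
import Cfsg.Agent.H658.Domin
import Cfsg.Agent.S4677

/-!
# Fusion and subsections for 2-blocks: tools

`a` a maximal Brauer pair of the block `B`.
* `isConjElt_iff`: conjugacy in the block fusion system of S4677 and `Fus`;
* `rank_add_le`: `l(B) + m ≤ k(B)` for `m` nontrivial elements of `a.1`, pairwise not fused;
* `isDefectGroup_bel_of_central`: for `c` central in `a.1` the block `b_c` has defect group `a.1`;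
* `exists_quot`: `l(b_c) = l(b')` for a block `b'` of a group with defect group `a.1 / ⟨c⟩`.
-/

set_option autoImplicit false
set_option linter.unusedSectionVars false

open Cfsg
open scoped ComplexConjugate

namespace Cfsg.Agent.H602.Small

open Cfsg.Agent.Blocks.Blau Cfsg.Agent.Blocks.Local Cfsg.Agent.Characters
open Cfsg.Agent.H613.SubSys Cfsg.Agent.H613.SubFus Cfsg.Agent.H619.Tame
open Cfsg.Agent.H639 Cfsg.Agent.H649 Cfsg.Agent.H651

universe u

variable {G : Type u} [Group G] [Finite G] {p : ℕ} [Fact p.Prime] {M : Ideal AlgInt}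
  {B : Set (IrrCharacter G)} {a : BrauerPairIdx G}

/-- Conjugacy of elements in the block fusion system. -/
theorem isConjElt_iff (hM : IsPModular p M) (hmax : IsMaximalBrauerPair p M B a.1 a.2)
    {F : FusionSystem a.1} (hF : IsBlockFusionSystemOn p M B a.1 a.2 F) {u v : G}
    (hu : u ∈ a.1) (hv : v ∈ a.1) : F.IsConjElt u v ↔ Fus p M a u v := by
  constructor
  · rintro ⟨φ, hφ, hφv⟩
    obtain ⟨hle, g, hg, -, f, hf1, hf2⟩ := (hF.2 _ φ).1 hφ
    have h1 : (⟨Subgroup.zpowers u, f⟩ : BrauerPairIdx G) = bel p M a u :=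
      eq_bel hM hmax.1.1 rfl hf1
    have h2 : LEIdx p M (conjIdx g (bel p M a u)) a := by
      rw [← h1, conjIdx_mk]
      exact hf2
    have h3 := Fus.of_le hM hmax.1.1 h2
    have h4 : g * u * g⁻¹ = v := (hg ⟨u, Subgroup.mem_zpowers u⟩).symm.trans hφv
    rwa [h4] at h3
  · rintro ⟨g, hg, hgb⟩
    refine ⟨(MulAut.conj g).toMonoidHom.comp (Subgroup.zpowers u).subtype, ?_, hg⟩
    have hz : (Subgroup.zpowers u).map (MulAut.conj g).toMonoidHom = Subgroup.zpowers v := by
      rw [MonoidHom.map_zpowers, ← hg]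
      rfl
    refine (hF.2 _ _).2 ⟨Subgroup.zpowers_le.2 hu, g, fun _ => rfl, ?_, (bel p M a u).2,
      bel_le hM hmax.1.1 hu, ?_⟩
    · rw [hz]
      exact Subgroup.zpowers_le.2 hv
    · have h1 : LEIdx p M (conjIdx g (bel p M a u)) a := by
        rw [hgb]
        exact bel_le hM hmax.1.1 hv
      have h2 : conjIdx g (bel p M a u) =
          ⟨(Subgroup.zpowers u).map (MulAut.conj g).toMonoidHom,
            conjBlock (Subgroup.zpowers u) g (bel p M a u).2⟩ := conjIdx_mk g _ _
      rw [h2] at h1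
      exact h1

theorem one_le_blockRank_bel (hM : IsPModular p M) (hmax : IsMaximalBrauerPair p M B a.1 a.2)
    {u : G} (hu : u ∈ a.1) : 1 ≤ blockRank p (bel p M a u).2 := by
  have := isPrime_of_isPModular hM
  exact H613.RankPos.one_le_blockRank
    (Cfsg.Agent.Blocks.Basic.isPBlock_nonempty (isPBlock_bel hM hmax.1.1 hu))

/-- Pairwise nonfused elements. -/
theorem rank_add_le (hM : IsPModular 2 M) (hmax : IsMaximalBrauerPair 2 M B a.1 a.2)
    {m : ℕ} (r : Fin m → G) (hr : ∀ i, r i ∈ a.1) (hr1 : ∀ i, r i ≠ 1)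
    (hinj : ∀ i j, Fus 2 M a (r i) (r j) → i = j) : blockRank 2 B + m ≤ Nat.card B := by
  have : Fact (Nat.Prime 2) := ⟨Nat.prime_two⟩
  have hsys := isSys_rep hM hmax
  rw [hsys.card_eq hM hmax.1.2.1]
  have h1 : ∑ i : Cl M a, 1 ≤ ∑ i : Cl M a, blockRank 2 (bel 2 M a (rep i)).2 :=
    Finset.sum_le_sum fun i _ => one_le_blockRank_bel hM hmax (rep_mem i)
  have h2 : m ≤ Fintype.card (Cl M a) := by
    have h3 : Function.Injective fun i : Fin m => mkCl M a (r i) (hr i) (hr1 i) :=
      fun i j h => hinj i j ((mkCl_eq_iff _ _ _ _).1 h)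
    simpa using Fintype.card_le_of_injective _ h3
  rw [Finset.sum_const, Finset.card_univ, smul_eq_mul, mul_one] at h1
  omega

/-- The exact formula. -/
theorem card_eq_rank_add (hM : IsPModular 2 M) (hmax : IsMaximalBrauerPair 2 M B a.1 a.2) :
    Nat.card B = blockRank 2 B + ∑ i : Cl M a, blockRank 2 (bel 2 M a (rep i)).2 := by
  have : Fact (Nat.Prime 2) := ⟨Nat.prime_two⟩
  exact (isSys_rep hM hmax).card_eq hM hmax.1.2.1

/-- The centralizer of a central element. -/
theorem le_centralizer_bel {c : G} (hcc : ∀ d ∈ a.1, d * c = c * d) :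
    a.1 ≤ Subgroup.centralizer ((bel p M a c).1 : Set G) := by
  intro y hy
  rw [bel_fst, centralizer_zpowers, Subgroup.mem_centralizer_singleton_iff]
  exact hcc y hy

/-- The defect group at a central element. -/
theorem isDefectGroup_bel_of_central (hM : IsPModular p M)
    (hmax : IsMaximalBrauerPair p M B a.1 a.2) {c : G} (hc : c ∈ a.1)
    (hcc : ∀ d ∈ a.1, d * c = c * d) :
    IsDefectGroup p M (bel p M a c).2
      (a.1.subgroupOf (Subgroup.centralizer ((bel p M a c).1 : Set G))) := by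
  have := Fintype.ofFinite G
  obtain ⟨D, hD, hle⟩ := exists_centralizer_defect hM hmax.1.1 (bel_le hM hmax.1.1 hc)
  have h1 := S0908.result p M hM (bel p M a c).2 (isPBlock_bel hM hmax.1.1 hc) D hD
  rw [blockDefect_bel_of_central hM hmax hc hcc, pow_blockDefect_eq hM hmax] at h1
  have hC := le_centralizer_bel (p := p) (M := M) hcc
  have hC' : a.1 ⊓ Subgroup.centralizer ((Subgroup.zpowers c : Subgroup G) : Set G) = a.1 :=
    inf_eq_left.2 hC
  rw [hC'] at hle
  have h2 : a.1.subgroupOf (Subgroup.centralizer ((bel p M a c).1 : Set G)) = D := by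
    refine Subgroup.eq_of_le_of_card_ge hle ?_
    rw [h1, Nat.card_congr (Subgroup.subgroupOfEquivOfLe hC).toEquiv]
  rw [h2]
  exact hD

/-- The block dominated at a central element. -/
theorem exists_quot (hM : IsPModular p M) (hmax : IsMaximalBrauerPair p M B a.1 a.2) {c : G}
    (hc : c ∈ a.1) (hcc : ∀ d ∈ a.1, d * c = c * d) :
    ∃ (K : Type u) (_ : Group K) (_ : Finite K) (b : Set (IrrCharacter K)) (D : Subgroup K)
      (f : a.1 →* D), IsPBlock M b ∧ IsDefectGroup p M b D ∧ Function.Surjective f ∧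
        (∀ x : a.1, f x = 1 ↔ (x : G) ∈ Subgroup.zpowers c) ∧
        blockRank p b = blockRank p (bel p M a c).2 := by
  have hap : IsPGroup p a.1 := hmax.1.1.1
  have hC := le_centralizer_bel (p := p) (M := M) (a := a) hcc
  set C := Subgroup.centralizer ((bel p M a c).1 : Set G) with hCdef
  have := Fintype.ofFinite C
  let w : C := ⟨c, hC hc⟩
  let U : Subgroup C := Subgroup.zpowers w
  have hU : U ≤ Subgroup.center C := by
    rw [Subgroup.zpowers_le, Subgroup.mem_center_iff]
    intro g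
    apply Subtype.ext
    have h1 : (g : G) ∈ Subgroup.centralizer ((Subgroup.zpowers c : Subgroup G) : Set G) := g.2
    rw [centralizer_zpowers, Subgroup.mem_centralizer_singleton_iff] at h1
    exact h1
  have hUn : U.Normal := ⟨fun z hz g => by
    rw [Subgroup.mem_center_iff.1 (hU hz) g, mul_assoc, mul_inv_cancel, mul_one]
    exact hz⟩
  have hUp : IsPGroup p U := by
    intro x
    obtain ⟨k, hk⟩ := Subgroup.mem_zpowers_iff.1 x.2
    obtain ⟨n, hn⟩ := hap ⟨c, hc⟩
    have hn' : c ^ p ^ n = 1 := congrArg Subtype.val hn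
    refine ⟨n, ?_⟩
    apply Subtype.ext
    have hw : w ^ p ^ n = 1 := Subtype.ext hn'
    rw [Subgroup.coe_pow, ← hk, ← zpow_natCast, ← zpow_mul, mul_comm, zpow_mul, zpow_natCast,
      hw, one_zpow]
    rfl
  have hb := isPBlock_bel hM hmax.1.1 hc
  have hD := isDefectGroup_bel_of_central hM hmax hc hcc
  obtain ⟨-, h2⟩ := Cfsg.Agent.H658.isDefectGroup_defl hM hU hUp hb hD
  refine ⟨C ⧸ U, inferInstance, inferInstance, Cfsg.Agent.H644.CentralQuot.defl U (bel p M a c).2,
    (a.1.subgroupOf C).map (QuotientGroup.mk' U),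
    (((QuotientGroup.mk' U).comp (Subgroup.inclusion hC)).codRestrict _ fun x =>
      ⟨⟨x, hC x.2⟩, x.2, rfl⟩),
    Cfsg.Agent.H644.CentralQuot.isPBlock_defl hM hU hUp hb, h2, ?_, ?_,
    Cfsg.Agent.H644.CentralQuot.blockRank_defl hM hU hUp hb⟩
  · rintro ⟨_, y, hy, rfl⟩
    exact ⟨⟨y, hy⟩, rfl⟩
  · intro x
    rw [← Subtype.coe_inj]
    change (QuotientGroup.mk (⟨x, hC x.2⟩ : C) : C ⧸ U) = 1 ↔ _
    rw [QuotientGroup.eq_one_iff, Subgroup.mem_zpowers_iff, Subgroup.mem_zpowers_iff]
    constructor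
    · rintro ⟨k, hk⟩
      exact ⟨k, congrArg Subtype.val hk⟩
    · rintro ⟨k, hk⟩
      exact ⟨k, Subtype.ext hk⟩

end Cfsg.Agent.H602.Small
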