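import Mathlib
import Cfsg.Agent.H602.Small.Fus
import Cfsg.Agent.H642.DihFus
import Cfsg.Agent.S4687
import Cfsg.Agent.S4689

/-!
# Automorphisms of small 2-groups, blocks with defect group `C₄ × C₂`

* `aut_eq_one_of_eight`: automorphisms of odd order of an abelian group of order 8 which is not
  elementary abelian are trivial;
* `aut_eq_one_of_sixteen`: the same for a group of order 16 with a central involution `z` such that
  the quotient is abelian and not elementary abelian;
* `rank_one_of_aut`: `l(B) = 1` for an abelian defect group with `Aut(D)` a 2-group;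
* `rank_one_of_abelian_eight`.
-/

set_option autoImplicit false
set_option linter.unusedSectionVars false

open Cfsg

namespace Cfsg.Agent.H602.Small

universe u

theorem isPGroup_two_of_odd {A : Type*} [Group A] [Finite A]
    (h : ∀ a : A, Odd (orderOf a) → a = 1) : IsPGroup 2 A := by
  intro a
  obtain ⟨k, m, hm, hk⟩ := Nat.exists_eq_two_pow_mul_odd (orderOf_pos a).ne'
  refine ⟨k, h _ ?_⟩
  rw [orderOf_pow, hk, Nat.gcd_mul_right_left, Nat.mul_div_cancel_left _ (by positivity)]
  exact hm

section Aut

variable {D : Type*} [Group D]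

theorem eq_of_odd_pow {α : MulAut D} {n : ℕ} (hα : α ^ n = 1) (hn : Odd n) {x w : D}
    (hx : α x = x * w) (hw : α w = w) (hw2 : w * w = 1) : α x = x := by
  have key : ∀ k : ℕ, (α ^ k) x = x * w ^ k := by
    intro k
    induction k with
    | zero => simp
    | succ k ih => rw [pow_succ', MulAut.mul_apply, ih, map_mul, map_pow, hx, hw, pow_succ',
        mul_assoc]
  have h1 := key n
  rw [hα, MulAut.one_apply] at h1
  have h2 : w ^ n = 1 := by
    have h3 : x * 1 = x * w ^ n := by rw [mul_one]; exact h1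
    exact (mul_left_cancel h3).symm
  obtain ⟨m, rfl⟩ := hn
  rw [pow_succ, pow_mul, pow_two, hw2, one_pow, one_mul] at h2
  rw [hx, h2, mul_one]

theorem aut_eq_one_of_fix (hp : IsPGroup 2 D) (hab : ∀ x y : D, x * y = y * x) {α : MulAut D}
    {n : ℕ} (hα : α ^ n = 1) (hn : Odd n) (hfix : ∀ x : D, x * x = 1 → α x = x) : α = 1 := by
  have key : ∀ k : ℕ, ∀ x : D, x ^ 2 ^ k = 1 → α x = x := by
    intro k
    induction k with
    | zero =>
      intro x hx
      rw [pow_zero, pow_one] at hx
      rw [hx, map_one]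
    | succ k ih =>
      intro x hx
      have h1 : α (x * x) = x * x := ih _ (by
        rw [← pow_two, ← pow_mul, mul_comm, ← pow_succ]; exact hx)
      have hw2 : (x⁻¹ * α x) * (x⁻¹ * α x) = 1 := by
        calc x⁻¹ * α x * (x⁻¹ * α x) = x⁻¹ * (α x * x⁻¹) * α x := by group
          _ = x⁻¹ * (x⁻¹ * α x) * α x := by rw [hab (α x) x⁻¹]
          _ = (x * x)⁻¹ * (α x * α x) := by group
          _ = 1 := by rw [← map_mul, h1, inv_mul_cancel]
      exact eq_of_odd_pow hα hn (w := x⁻¹ * α x) (by group) (hfix _ hw2) hw2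
  apply MulEquiv.ext
  intro x
  obtain ⟨k, hk⟩ := hp x
  exact key k x hk

/-- Automorphisms of odd order of an abelian group of order 8, not elementary abelian. -/
theorem aut_eq_one_of_eight (h8 : Nat.card D = 8) (hab : ∀ x y : D, x * y = y * x) {x : D}
    (hx : x * x ≠ 1) {α : MulAut D} {n : ℕ} (hα : α ^ n = 1) (hn : Odd n) : α = 1 := by
  have hfin : Finite D := Nat.finite_of_card_ne_zero (by rw [h8]; norm_num)
  have hp : IsPGroup 2 D := IsPGroup.of_card (n := 3) (by rw [h8]; norm_num)
  refine aut_eq_one_of_fix hp hab hα hn ?_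
  let sq : D →* D :=
    { toFun := fun y => y * y
      map_one' := mul_one 1
      map_mul' := fun a b => by
        rw [mul_assoc, mul_assoc a a, ← mul_assoc b a b, hab b a, mul_assoc a b b] }
  have hsq : ∀ y, sq y = y * y := fun _ => rfl
  have hmk : ∀ y, y ∈ sq.ker ↔ y * y = 1 := fun y => MonoidHom.mem_ker
  have hcard : Nat.card sq.ker * Nat.card sq.range = 8 := by
    rw [← h8, ← Subgroup.card_mul_index sq.ker, Subgroup.index_ker]
  have hxr : x * x ∈ sq.range := ⟨x, rfl⟩
  have hK1 : Nat.card sq.ker ≠ 1 := by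
    intro h
    have : Fact (Nat.Prime 2) := ⟨Nat.prime_two⟩
    obtain ⟨y, hy⟩ := exists_prime_orderOf_dvd_card' (G := D) 2 (by rw [h8]; norm_num)
    have h1 : y ∈ sq.ker := (hmk y).2 (by rw [← pow_two, ← hy, pow_orderOf_eq_one])
    rw [Subgroup.card_eq_one.1 h, Subgroup.mem_bot] at h1
    rw [h1, orderOf_one] at hy
    norm_num at hy
  have hR1 : Nat.card sq.range ≠ 1 := by
    intro h
    rw [Subgroup.card_eq_one.1 h, Subgroup.mem_bot] at hxr
    exact hx hxr
  have hmap : ∀ y, y * y = 1 → α y * α y = 1 := fun y hy => by rw [← map_mul, hy, map_one]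
  have hK : Nat.card sq.ker = 2 ∨ (Nat.card sq.ker = 4 ∧ Nat.card sq.range = 2) := by
    have h1 : Nat.card sq.ker ∣ 8 := ⟨_, hcard.symm⟩
    have h2 : Nat.card sq.ker ≤ 8 := Nat.le_of_dvd (by norm_num) h1
    generalize Nat.card sq.ker = k at *
    generalize Nat.card sq.range = r at *
    interval_cases k <;> omega
  intro e he
  by_cases he1 : e = 1
  · rw [he1, map_one]
  rcases hK with hK | ⟨hK, hR⟩
  · obtain ⟨t, ht, huniq⟩ := (Nat.card_eq_two_iff' (1 : sq.ker)).1 hK
    have h1 := huniq ⟨e, (hmk e).2 he⟩ (fun h => he1 (congrArg Subtype.val h))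
    have h2 := huniq ⟨α e, (hmk _).2 (hmap e he)⟩ (fun h => he1 (by
      have h3 : α e = 1 := congrArg Subtype.val h
      exact (map_eq_one_iff _ α.injective).1 h3))
    exact congrArg Subtype.val (h2.trans h1.symm)
  · obtain ⟨v, hv⟩ : ∃ v, v = x * x := ⟨_, rfl⟩
    rw [← hv] at hx hxr
    have hRv : ∀ y, y ∈ sq.range → y = 1 ∨ y = v := by
      intro y hy
      obtain ⟨t, ht, huniq⟩ := (Nat.card_eq_two_iff' (1 : sq.range)).1 hR
      by_cases hy1 : y = 1
      · exact Or.inl hy1
      · right
        have h1 := huniq ⟨y, hy⟩ (fun h => hy1 (congrArg Subtype.val h))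
        have h2 := huniq ⟨v, hxr⟩ (fun h => hx (congrArg Subtype.val h))
        exact congrArg Subtype.val (h1.trans h2.symm)
    have hvv : v * v = 1 := by
      rcases hRv (v * v) ⟨v, rfl⟩ with h | h
      · exact h
      · exact absurd (mul_eq_left.1 h) hx
    have hαv : α v = v := by
      rcases hRv (α v) ⟨α x, by rw [hsq, ← map_mul, ← hv]⟩ with h | h
      · exact absurd ((map_eq_one_iff _ α.injective).1 h) hx
      · exact h
    by_cases hev : e = v
    · rw [hev]; exact hαv
    have hmem : ∀ y, y * y = 1 → y ∈ ({1, v, e, e * v} : Set D) := by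
      have h1 : ({1, v, e, e * v} : Set D) ⊆ (sq.ker : Set D) := by
        rintro y (rfl | rfl | rfl | rfl)
        · exact one_mem _
        · exact (hmk _).2 hvv
        · exact (hmk _).2 he
        · exact (sq.ker).mul_mem ((hmk _).2 he) ((hmk _).2 hvv)
      have h2 : Set.ncard ({1, v, e, e * v} : Set D) = 4 := by
        rw [Set.ncard_insert_of_notMem, Set.ncard_insert_of_notMem, Set.ncard_pair]
        · exact fun h => hx (left_eq_mul.1 h)
        · rintro (h | h)
          · exact hev h.symm
          · exact he1 (right_eq_mul.1 h)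
        · rintro (h | h | h)
          · exact hx h.symm
          · exact he1 h.symm
          · apply hev
            have h3 : e * v * v = v := by rw [← h, one_mul]
            rwa [mul_assoc, hvv, mul_one] at h3
      have h3 := Set.eq_of_subset_of_ncard_le h1 (by
        rw [h2]
        exact hK.le)
      intro y hy
      rw [h3]
      exact (hmk y).2 hy
    rcases hmem (α e) (hmap e he) with h | h | h | h
    · exact absurd ((map_eq_one_iff _ α.injective).1 h) he1
    · exact absurd (α.injective (h.trans hαv.symm)) hev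
    · exact h
    · exact eq_of_odd_pow hα hn h hαv hvv

/-- Automorphisms of odd order of a group with a characteristic involution `z` such that the quotient
is abelian of order 8, not elementary abelian. -/
theorem aut_eq_one_of_sixteen (h16 : Nat.card D = 16) {z : D} (hz2 : z * z = 1) (hz1 : z ≠ 1)
    (hzc : ∀ d : D, d * z = z * d) (hcom : ∀ a b : D, a * b = b * a ∨ a * b = b * a * z)
    (hne : ∃ a b : D, a * b ≠ b * a) {x : D} (hx : x * x ≠ 1) (hxz : x * x ≠ z)
    {α : MulAut D} {n : ℕ} (hα : α ^ n = 1) (hn : Odd n) : α = 1 := by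
  have hfin : Finite D := Nat.finite_of_card_ne_zero (by rw [h16]; norm_num)
  -- `z` is fixed
  have hαz : α z = z := by
    obtain ⟨a, b, hab⟩ := hne
    have h1 : a * b = b * a * z := (hcom a b).resolve_left hab
    have h2 := congrArg α h1
    rw [map_mul, map_mul, map_mul] at h2
    rcases hcom (α a) (α b) with h3 | h3
    · exfalso
      apply hab
      apply α.injective
      rw [map_mul, map_mul, h3]
    · rw [h3] at h2
      exact (mul_left_cancel h2).symm
  have hzord : orderOf z = 2 := orderOf_eq_prime (by rw [pow_two]; exact hz2) hz1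
  let N : Subgroup D := Subgroup.zpowers z
  have hmemN : ∀ y, y ∈ N ↔ y = 1 ∨ y = z := by
    intro y
    constructor
    · intro hy
      obtain ⟨k, rfl⟩ := Subgroup.mem_zpowers_iff.1 hy
      rcases Int.even_or_odd k with ⟨m, rfl⟩ | ⟨m, rfl⟩
      · left
        rw [← two_mul, zpow_mul]
        have : z ^ (2 : ℤ) = 1 := by
          rw [show (2 : ℤ) = 1 + 1 by norm_num, zpow_add, zpow_one, hz2]
        rw [this, one_zpow]
      · right
        rw [zpow_add, zpow_mul, zpow_one]
        have : z ^ (2 : ℤ) = 1 := by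
          rw [show (2 : ℤ) = 1 + 1 by norm_num, zpow_add, zpow_one, hz2]
        rw [this, one_zpow, one_mul]
    · rintro (rfl | rfl)
      · exact one_mem _
      · exact Subgroup.mem_zpowers _
  have hN : N.Normal := ⟨fun y hy g => by
    rcases (hmemN y).1 hy with h | h
    · rw [h, mul_one, mul_inv_cancel]; exact one_mem _
    · rw [h, hzc, mul_inv_cancel_right]; exact Subgroup.mem_zpowers _⟩
  have hNmap : N.map α.toMonoidHom = N := by
    rw [MonoidHom.map_zpowers]
    change Subgroup.zpowers (α z) = _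
    rw [hαz]
  let β : MulAut (D ⧸ N) := QuotientGroup.congr N N α hNmap
  have hβ : ∀ y : D, β (QuotientGroup.mk y) = QuotientGroup.mk (α y) := fun y => rfl
  have hβn : β ^ n = 1 := by
    have key : ∀ k : ℕ, ∀ y : D, (β ^ k) (QuotientGroup.mk y) = QuotientGroup.mk ((α ^ k) y) := by
      intro k
      induction k with
      | zero => intro y; simp
      | succ k ih => intro y; rw [pow_succ', pow_succ', MulAut.mul_apply, MulAut.mul_apply, ih, hβ]
    apply MulEquiv.ext
    intro q
    obtain ⟨y, rfl⟩ := QuotientGroup.mk_surjective q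
    rw [key n y, hα]
    rfl
  have hq8 : Nat.card (D ⧸ N) = 8 := by
    have h1 := Subgroup.card_mul_index N
    rw [h16, Nat.card_zpowers, hzord] at h1
    have h2 : N.index = 8 := by omega
    exact h2
  have hqab : ∀ q r : D ⧸ N, q * r = r * q := by
    intro q r
    obtain ⟨y, rfl⟩ := QuotientGroup.mk_surjective q
    obtain ⟨w, rfl⟩ := QuotientGroup.mk_surjective r
    rw [← QuotientGroup.mk_mul, ← QuotientGroup.mk_mul]
    rcases hcom w y with h | h
    · rw [h]
    · rw [h, QuotientGroup.mk_mul N (y * w) z, (QuotientGroup.eq_one_iff z).2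
        (Subgroup.mem_zpowers z), mul_one]
  have hqx : (QuotientGroup.mk x : D ⧸ N) * QuotientGroup.mk x ≠ 1 := by
    rw [← QuotientGroup.mk_mul, Ne, QuotientGroup.eq_one_iff]
    intro h
    rcases (hmemN _).1 h with h1 | h1
    · exact hx h1
    · exact hxz h1
  have hβ1 := aut_eq_one_of_eight hq8 hqab hqx hβn hn
  apply MulEquiv.ext
  intro y
  have h1 := hβ y
  rw [hβ1] at h1
  have h2 : y⁻¹ * α y ∈ N := QuotientGroup.eq.1 h1
  rcases (hmemN _).1 h2 with h3 | h3
  · exact (inv_mul_eq_one.1 h3).symm
  · exact eq_of_odd_pow hα hn (w := z) (by rw [← h3]; group) hαz hz2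

end Aut

section Block

variable {G : Type u} [Group G] [Finite G] {M : Ideal AlgInt} {B : Set (IrrCharacter G)}

/-- An abelian defect group whose automorphism group is a `p`-group. -/
theorem rank_one_of_aut {p : ℕ} [Fact p.Prime] (hM : IsPModular p M) (hB : IsPBlock M B)
    {D : Subgroup G} (hD : IsDefectGroup p M B D) (hab : ∀ x ∈ D, ∀ y ∈ D, x * y = y * x)
    (haut : IsPGroup p (MulAut D)) : blockRank p B = 1 := by
  have := Fintype.ofFinite G
  have := Cfsg.Agent.Blocks.Local.isPrime_of_isPModular hM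
  obtain ⟨e, he⟩ := Cfsg.Agent.H649.exists_pair_of_isDefectGroup hM hB hD
  have hmax := Cfsg.Agent.H644.isMaximalBrauerPair_of_isDefectGroup hM he hD
  refine (Cfsg.Agent.S4689.result p M hM B ?_).1
  rw [Cfsg.Agent.S4687.result p M hM B D e hmax hab]
  intro g hg hst
  have h1 : Cfsg.Agent.H649.conjIdx g ⟨D, e⟩ = (⟨D, e⟩ : BrauerPairIdx G) :=
    (Cfsg.Agent.H649.conjIdx_eq_iff hmax.1.1.2 g).2 ⟨hg, hst⟩
  obtain ⟨d, hd, hgd⟩ := Cfsg.Agent.H642.DihFus.exists_mem_conj (a := ⟨D, e⟩) hM hmax (R := D)
    le_rfl Subgroup.le_normalizer haut (f := e) Relation.ReflTransGen.refl h1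
  rw [Subgroup.mem_centralizer_iff]
  intro y hy
  have h2 := hgd y hy
  rw [hab d hd y hy, mul_inv_cancel_right] at h2
  calc y * g = g * y * g⁻¹ * g := by rw [h2]
    _ = g * y := by group

/-- Abelian defect groups of order 8 which are not elementary abelian. -/
theorem rank_one_of_abelian_eight (hM : IsPModular 2 M) (hB : IsPBlock M B) {D : Subgroup G}
    (hD : IsDefectGroup 2 M B D) (hab : ∀ x ∈ D, ∀ y ∈ D, x * y = y * x)
    (h8 : Nat.card D = 8) {x : G} (hx : x ∈ D) (hxx : x * x ≠ 1) : blockRank 2 B = 1 := by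
  have : Fact (Nat.Prime 2) := ⟨Nat.prime_two⟩
  refine rank_one_of_aut hM hB hD hab (isPGroup_two_of_odd fun α hα => ?_)
  exact aut_eq_one_of_eight h8 (fun y w => Subtype.ext (hab y y.2 w w.2)) (x := ⟨x, hx⟩)
    (fun h => hxx (congrArg Subtype.val h)) (pow_orderOf_eq_one α) hα

end Block

end Cfsg.Agent.H602.Small
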