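import Mathlib
import Cfsg.Agent.H617.FusMain
import Cfsg.Agent.H602.Small.Eight

/-!
# Fusion in 2-groups with a centre of index four and a commutator subgroup of order two

* `exists_pow_conj`: conjugacy of involutions in a group without commuting involutions;
* `aut_central_fixed`: for `|Z(S)| = 4` the maps of `Aut_F(C_S(y))` do not move elements of `Z(S)`
  inside `Z(S)`;
* `exists_conj_of_isPGroup_aut`: `Aut_F(Q)` is induced by `S` if `Q` is normal in `S` and `Aut(Q)` is a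
  `p`-group.
-/

set_option autoImplicit false
set_option linter.unusedSectionVars false

namespace Cfsg.Agent.H602.Small

open Cfsg Cfsg.FusionSystem Cfsg.Agent.H802 Cfsg.Agent.H617.FusInv Cfsg.Agent.H617.FusTwo
open Cfsg.Agent.H617.FusFour Cfsg.Agent.H617.FusMain

/-- Two involutions are conjugate if there are no commuting involutions. -/
theorem exists_pow_conj {H : Type*} [Group H] [Finite H]
    (hH : ∀ σ τ : H, σ * σ = 1 → τ * τ = 1 → σ ≠ 1 → τ ≠ 1 → σ * τ = τ * σ → σ = τ)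
    {σ τ : H} (hσ : σ * σ = 1) (hτ : τ * τ = 1) (hσ1 : σ ≠ 1) (hτ1 : τ ≠ 1) :
    ∃ k : ℕ, (σ * τ) ^ k * σ * ((σ * τ) ^ k)⁻¹ = τ := by
  have hσi : σ⁻¹ = σ := inv_eq_of_mul_eq_one_right hσ
  have hτi : τ⁻¹ = τ := inv_eq_of_mul_eq_one_right hτ
  obtain ⟨ρ, hρ⟩ : ∃ ρ, ρ = σ * τ := ⟨_, rfl⟩
  rw [← hρ]
  have h1 : σ * ρ * σ⁻¹ = ρ⁻¹ := by
    rw [hρ, mul_inv_rev, hσi, hτi, ← mul_assoc, hσ, one_mul]
  have h2 : τ * ρ * τ⁻¹ = ρ⁻¹ := by
    rw [hρ, mul_inv_rev, hσi, hτi, mul_assoc τ, mul_assoc σ, hτ, mul_one]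
  have h1k : ∀ k : ℕ, σ * ρ ^ k * σ⁻¹ = (ρ ^ k)⁻¹ := fun k => by
    rw [← conj_pow, h1, inv_pow]
  have h2k : ∀ k : ℕ, τ * ρ ^ k * τ⁻¹ = (ρ ^ k)⁻¹ := fun k => by
    rw [← conj_pow, h2, inv_pow]
  rcases Nat.even_or_odd (orderOf ρ) with ⟨k, hk⟩ | ⟨k, hk⟩
  · exfalso
    have hpos := orderOf_pos ρ
    obtain ⟨μ, hμ⟩ : ∃ μ, μ = ρ ^ k := ⟨_, rfl⟩
    have hμ2 : μ * μ = 1 := by rw [hμ, ← pow_add, ← hk, pow_orderOf_eq_one]
    have hμ1 : μ ≠ 1 := by
      intro h
      rw [hμ] at h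
      have := Nat.le_of_dvd (by omega) (orderOf_dvd_of_pow_eq_one h)
      omega
    have hμi : μ⁻¹ = μ := inv_eq_of_mul_eq_one_right hμ2
    have h3 : σ * μ = μ * σ := by
      have h4 := h1k k
      rw [← hμ, hμi] at h4
      calc σ * μ = σ * μ * σ⁻¹ * σ := by group
        _ = μ * σ := by rw [h4]
    have h5 : τ * μ = μ * τ := by
      have h4 := h2k k
      rw [← hμ, hμi] at h4
      calc τ * μ = τ * μ * τ⁻¹ * τ := by group
        _ = μ * τ := by rw [h4]
    have h6 := hH σ μ hσ hμ2 hσ1 hμ1 h3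
    have h7 := hH τ μ hτ hμ2 hτ1 hμ1 h5
    have h8 : ρ = 1 := by rw [hρ, h6, h7, hμ2]
    apply hμ1
    rw [hμ, h8, one_pow]
  · refine ⟨k, ?_⟩
    have h3 : ρ ^ k * σ * (ρ ^ k)⁻¹ = σ * ((ρ ^ k)⁻¹ * (ρ ^ k)⁻¹) := by
      have h4 : ρ ^ k * σ = σ * (ρ ^ k)⁻¹ := by
        rw [← h1k k, hσi]
        rw [← mul_assoc, ← mul_assoc, hσ, one_mul]
      rw [h4, mul_assoc]
    rw [h3]
    have h5 : (ρ ^ k)⁻¹ * (ρ ^ k)⁻¹ = ρ := by
      rw [← mul_inv_rev, ← pow_add, inv_eq_iff_mul_eq_one, ← pow_succ]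
      have : k + k + 1 = orderOf ρ := by omega
      rw [this, pow_orderOf_eq_one]
    rw [h5, hρ, ← mul_assoc, hσ, one_mul]

/-- Elements of 2-power order when the Sylow 2-subgroups have order two. -/
theorem sq_eq_one_of_sylow {H : Type*} [Group H] [Finite H] (R : Sylow 2 H)
    (hR : Nat.card R = 2) {μ : H} {k : ℕ} (hμ : μ ^ 2 ^ k = 1) : μ * μ = 1 := by
  have : Fact (Nat.Prime 2) := ⟨Nat.prime_two⟩
  have hP : IsPGroup 2 (Subgroup.zpowers μ) := by
    obtain ⟨m, -, hm⟩ := (Nat.dvd_prime_pow Nat.prime_two).1 (orderOf_dvd_of_pow_eq_one hμ)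
    exact IsPGroup.of_card (n := m) (by rw [Nat.card_zpowers, hm])
  obtain ⟨Q, hQ⟩ := hP.exists_le_sylow
  have hQc : Nat.card Q = 2 := (Nat.card_congr (Sylow.equiv Q R).toEquiv).trans hR
  have h1 : orderOf μ ∣ 2 := by
    rw [← hQc, ← Nat.card_zpowers]
    exact Subgroup.card_dvd_of_le hQ
  rw [← pow_two]
  exact orderOf_dvd_iff_pow_eq_one.1 h1

variable {Ω : Type*} [Group Ω] {S : Subgroup Ω}

/-- `Aut_F(Q)` is induced by `S` when `Aut(Q)` is a `p`-group. -/
theorem exists_conj_of_isPGroup_aut {p : ℕ} [Fact p.Prime] [Finite S] (hS : IsPGroup p S)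
    {F : FusionSystem S} (hF : F.IsSaturated p) {Q : Subgroup Ω} (hQ : Q ≤ S)
    (hn : S ≤ Subgroup.normalizer (Q : Set Ω)) (haut : IsPGroup p (MulAut Q)) {α : MulAut Q}
    (hα : α ∈ F.autGroup Q) : ∃ s ∈ S, ∀ r : Q, ((α r : Q) : Ω) = s * r * s⁻¹ := by
  obtain ⟨-, R, hR⟩ := isFullyAutomized_of_isFullyNormalized hS hF
    (isFullyNormalized_of_le_normalizer F hQ hn)
  have hp' : IsPGroup p (F.autGroup Q) := haut.to_subgroup _
  have hRtop : (R : Subgroup (F.autGroup Q)) = ⊤ :=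
    (R.3 (Q := ⊤) (hp'.of_equiv Subgroup.topEquiv.symm) le_top).symm
  have h2 : (⟨α, hα⟩ : F.autGroup Q) ∈ (autInducedBy S Q).subgroupOf (F.autGroup Q) := by
    rw [← hR, hRtop]
    exact Subgroup.mem_top _
  exact (mem_autInducedBy_iff S Q α).1 (Subgroup.mem_subgroupOf.1 h2)

section Quarter

variable [Finite S] (hS : IsPGroup 2 S) {F : FusionSystem S} (hF : F.IsSaturated 2)
  (h4 : (Z S).relIndex S = 4) {z : Ω} (hz : z ∈ Z S)
  (hz2 : z * z = 1) (hcom : ∀ a ∈ S, ∀ b ∈ S, a * b = b * a ∨ a * b = b * a * z)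

include hS hF h4 in
/-- The Sylow 2-subgroups of `Aut_F(C_S(y))` have order two. -/
theorem exists_sylow_two {y : Ω} (hy : y ∈ S) (hyZ : y ∉ Z S) :
    ∃ R : Sylow 2 (F.autGroup (C S y)), Nat.card R = 2 := by
  have hp : Fact (Nat.Prime 2) := ⟨Nat.prime_two⟩
  obtain ⟨hr1, hr2⟩ := relIndex_C h4 hy hyZ
  have hCS : C S y ≤ S := C_le y
  have hnorm := le_normalizer_of_relIndex_two hCS hr2
  have hab : ∀ a ∈ C S y, ∀ b ∈ C S y, a * b = b * a := fun a ha b hb =>
    comm_of_mem_C h4 hy hyZ ha hb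
  obtain ⟨s, hs, hsC⟩ := exists_not_mem_C hy hyZ
  have hsy : s * y ≠ y * s := fun h => hsC (mem_C.2 ⟨hs, h.symm⟩)
  have hcard := card_autInducedBy_of_relIndex_two hCS hr2 hab hs (self_mem_C hy) hsy
  obtain ⟨-, R, hR⟩ := isFullyAutomized_of_isFullyNormalized hS hF
    (isFullyNormalized_of_le_normalizer F hCS hnorm)
  refine ⟨R, ?_⟩
  have h1 : Nat.card R = Nat.card ((autInducedBy S (C S y)).subgroupOf (F.autGroup (C S y))) := by
    rw [← hR]
  rw [h1, Nat.card_congr (Subgroup.subgroupOfEquivOfLe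
    (autInducedBy_le_autGroup F hCS)).toEquiv, hcard]

include hS hF h4 hz hz2 hcom in
/-- Central elements are not fused by `Aut_F(C_S(y))`. -/
theorem aut_central_fixed (hZ4 : Nat.card (Z S) = 4) (hz1 : z ≠ 1) {y : Ω} (hy : y ∈ S)
    (hyZ : y ∉ Z S) {α : MulAut (C S y)} (hα : α ∈ F.autGroup (C S y)) {c : C S y}
    (hc : (c : Ω) ∈ Z S) (hαc : ((α c : C S y) : Ω) ∈ Z S) : α c = c := by
  have hp : Fact (Nat.Prime 2) := ⟨Nat.prime_two⟩
  obtain ⟨R, hR⟩ := exists_sylow_two hS hF h4 hy hyZ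
  obtain ⟨hr1, hr2⟩ := relIndex_C h4 hy hyZ
  have hCS : C S y ≤ S := C_le y
  have hfin : Finite (C S y) := finite_of_le hCS
  have hfinM : Finite (MulAut (C S y)) := inferInstance
  have hnorm := le_normalizer_of_relIndex_two hCS hr2
  have hab : ∀ a ∈ C S y, ∀ b ∈ C S y, a * b = b * a := fun a ha b hb =>
    comm_of_mem_C h4 hy hyZ ha hb
  obtain ⟨s, hs, hsC⟩ := exists_not_mem_C hy hyZ
  obtain ⟨τ, hτF, hτS, hτ⟩ := exists_conjAut_mem (F := F) hCS hs (hnorm hs)
  have hτZ : ∀ a : C S y, (a : Ω) ∈ Z S ↔ τ a = a := by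
    intro a
    constructor
    · intro ha
      apply Subtype.ext
      rw [hτ, (mem_Z.1 ha).2 s hs, mul_inv_cancel_right]
    · intro ha
      have h1 := hτ a
      rw [ha] at h1
      refine mem_Z_of_comm h4 hy hyZ a.2 hs hsC ?_
      calc s * (a : Ω) = s * a * s⁻¹ * s := by group
        _ = a * s := by rw [← h1]
  have hτ2 : τ * τ = 1 := by
    apply MulEquiv.ext
    intro a
    apply Subtype.ext
    rw [MulAut.mul_apply, hτ, hτ]
    have h1 : s * s ∈ C S y := by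
      rw [mul_mem_iff_of_relIndex_two hr2 hs hs]
    have h2 := hab _ h1 a a.2
    calc s * (s * (a : Ω) * s⁻¹) * s⁻¹ = (s * s * a) * (s * s)⁻¹ := by group
      _ = a := by rw [h2]; group
  have hτ1 : τ ≠ 1 := by
    intro h
    apply hyZ
    rw [show y = ((⟨y, self_mem_C hy⟩ : C S y) : Ω) from rfl, hτZ, h]
    rfl
  let zC : C S y := ⟨z, Z_le_C hy hz⟩
  have hτz : ∀ a : C S y, τ a = a ∨ τ a = a * zC := by
    intro a
    rcases hcom s hs a (hCS a.2) with h1 | h1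
    · left
      apply Subtype.ext
      rw [hτ, h1, mul_inv_cancel_right]
    · right
      apply Subtype.ext
      rw [hτ, h1, mul_assoc (a : Ω) s z, (mem_Z.1 hz).2 s hs, mul_assoc, mul_assoc,
        mul_inv_cancel, mul_one]
      rfl
  -- no commuting involutions
  have hH : ∀ σ ρ : F.autGroup (C S y), σ * σ = 1 → ρ * ρ = 1 → σ ≠ 1 → ρ ≠ 1 →
      σ * ρ = ρ * σ → σ = ρ := fun σ ρ h1 h2 h3 h4 h5 =>
    eq_of_commuting_involutions R hR (by rw [pow_two]; exact h1) (by rw [pow_two]; exact h2)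
      h5 h3 h4
  -- the element `γ`
  obtain ⟨γ, hγF, hγc, hγτ⟩ : ∃ γ ∈ F.autGroup (C S y), γ c = α c ∧ γ * τ = τ * γ := by
    let τA : F.autGroup (C S y) := ⟨τ, hτF⟩
    let αA : F.autGroup (C S y) := ⟨α, hα⟩
    obtain ⟨k, hk⟩ := exists_pow_conj hH (σ := αA * τA * αA⁻¹) (τ := τA)
      (by
        have h1 : τA * τA = 1 := Subtype.ext hτ2
        calc αA * τA * αA⁻¹ * (αA * τA * αA⁻¹) = αA * (τA * τA) * αA⁻¹ := by group
          _ = 1 := by rw [h1]; group)
      (Subtype.ext hτ2)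
      (by
        intro h
        apply hτ1
        have h1 : τA = αA⁻¹ * (αA * τA * αA⁻¹) * αA := by group
        rw [h] at h1
        have h2 : τA = 1 := by rw [h1]; group
        exact congrArg Subtype.val h2)
      (fun h => hτ1 (congrArg Subtype.val h))
    set β := (αA * τA * αA⁻¹ * τA) ^ k with hβ
    have hfix : ((β : F.autGroup (C S y)) : MulAut (C S y)) (α c) = α c := by
      have h1 : ((αA * τA * αA⁻¹ * τA : F.autGroup (C S y)) : MulAut (C S y)) (α c) = α c := by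
        change α (τ (α⁻¹ (τ (α c)))) = α c
        rw [(hτZ (α c)).1 hαc, MulAut.inv_apply_self, (hτZ c).1 hc]
      have h2 : ∀ j : ℕ, (((αA * τA * αA⁻¹ * τA) ^ j : F.autGroup (C S y)) :
          MulAut (C S y)) (α c) = α c := by
        intro j
        induction j with
        | zero => rfl
        | succ j ih => rw [pow_succ, Subgroup.coe_mul, MulAut.mul_apply, h1, ih]
      exact h2 k
    refine ⟨(β : MulAut (C S y)) * α, Subgroup.mul_mem _ β.2 hα, ?_, ?_⟩
    · rw [MulAut.mul_apply, hfix]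
    · have h3 : β * αA * τA = τA * (β * αA) := by
        calc β * αA * τA = β * (αA * τA * αA⁻¹) * β⁻¹ * (β * αA) := by group
          _ = τA * (β * αA) := by rw [hk]
      exact congrArg Subtype.val h3
  have hγτ' : ∀ a, γ (τ a) = τ (γ a) := fun a => by
    rw [← MulAut.mul_apply, hγτ, MulAut.mul_apply]
  have hzC1 : zC ≠ 1 := fun h => hz1 (congrArg Subtype.val h)
  have hzC2 : zC * zC = 1 := Subtype.ext hz2
  -- `γ` fixes `z`
  have hγz : γ zC = zC := by
    have h1 : ¬ τ ⟨y, self_mem_C hy⟩ = ⟨y, self_mem_C hy⟩ := fun h => hyZ ((hτZ _).2 h)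
    have h2 := (hτz ⟨y, self_mem_C hy⟩).resolve_left h1
    have h3 := hγτ' ⟨y, self_mem_C hy⟩
    rw [h2, map_mul] at h3
    rcases hτz (γ ⟨y, self_mem_C hy⟩) with h5 | h5
    · rw [h5] at h3
      exact absurd ((map_eq_one_iff _ γ.injective).1 (mul_eq_left.1 h3)) hzC1
    · rw [h5] at h3
      exact mul_left_cancel h3
  rw [← hγc]
  by_cases hc1 : c = 1
  · rw [hc1, map_one]
  by_cases hcz : c = zC
  · rw [hcz]; exact hγz
  -- the centre is `{1, z, c, cz}`
  have hγcZ : ((γ c : C S y) : Ω) ∈ Z S := by rw [hγc]; exact hαc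
  have hcc : ((c : Ω)) ≠ 1 := fun h => hc1 (Subtype.ext h)
  have hcz' : (c : Ω) ≠ z := fun h => hcz (Subtype.ext h)
  have hmem : ∀ w ∈ Z S, w ∈ ({1, z, (c : Ω), (c : Ω) * z} : Set Ω) := by
    have hfinZ : (Z S : Set Ω).Finite := by
      have : Finite (Z S) := finite_of_le Z_le
      exact Set.toFinite _
    have h1 : ({1, z, (c : Ω), (c : Ω) * z} : Set Ω) ⊆ (Z S : Set Ω) := by
      rintro w (rfl | rfl | rfl | rfl)
      · exact one_mem _
      · exact hz
      · exact hc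
      · exact (Z S).mul_mem hc hz
    have h2 : Set.ncard ({1, z, (c : Ω), (c : Ω) * z} : Set Ω) = 4 := by
      rw [Set.ncard_insert_of_notMem, Set.ncard_insert_of_notMem, Set.ncard_pair]
      · exact fun h => hz1 (left_eq_mul.1 h)
      · rintro (h | h)
        · exact hcz' h.symm
        · exact hcc (right_eq_mul.1 h)
      · rintro (h | h | h)
        · exact hz1 h.symm
        · exact hcc h.symm
        · apply hcz'
          have h3 : (c : Ω) * z * z = z := by rw [← h, one_mul]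
          rwa [mul_assoc, hz2, mul_one] at h3
    have h3 := Set.eq_of_subset_of_ncard_le h1 (by
      rw [h2]
      exact hZ4.le) hfinZ
    intro w hw
    rw [h3]
    exact hw
  rcases hmem _ hγcZ with h | h | h | h
  · exact absurd ((map_eq_one_iff _ γ.injective).1 (Subtype.ext h)) hc1
  · exfalso
    apply hcz
    apply γ.injective
    rw [hγz]
    exact Subtype.ext h
  · exact Subtype.ext h
  · exfalso
    have hγc2 : γ c = c * zC := Subtype.ext h
    -- the odd part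
    obtain ⟨k, m, hm, hk⟩ := Nat.exists_eq_two_pow_mul_odd (orderOf_pos γ).ne'
    have hpow : ∀ j : ℕ, (γ ^ j) c = c * zC ^ j := by
      intro j
      induction j with
      | zero => simp
      | succ j ih => rw [pow_succ', MulAut.mul_apply, ih, map_mul, map_pow, hγz, hγc2, pow_succ',
          mul_assoc]
    have hzm : zC ^ m = zC := by
      obtain ⟨i, rfl⟩ := hm
      rw [pow_succ, pow_mul, pow_two, hzC2, one_pow, one_mul]
    let μ : F.autGroup (C S y) := ⟨γ, hγF⟩ ^ m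
    have hμ2k : μ ^ 2 ^ k = 1 := by
      apply Subtype.ext
      change (γ ^ m) ^ 2 ^ k = 1
      rw [← pow_mul, mul_comm, ← hk, pow_orderOf_eq_one]
    have hμμ := sq_eq_one_of_sylow R hR hμ2k
    have hμc : ((μ : F.autGroup (C S y)) : MulAut (C S y)) c = c * zC := by
      change (γ ^ m) c = _
      rw [hpow, hzm]
    have hμ1 : μ ≠ 1 := by
      intro h
      rw [h] at hμc
      have h5 : c = c * zC := hμc
      exact hzC1 (left_eq_mul.1 h5)
    have hμτ : μ * ⟨τ, hτF⟩ = ⟨τ, hτF⟩ * μ := by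
      have h5 : Commute γ τ := hγτ
      exact Subtype.ext (h5.pow_left m).eq
    have h6 := hH μ ⟨τ, hτF⟩ hμμ (Subtype.ext hτ2) hμ1 (fun h => hτ1 (congrArg Subtype.val h))
      hμτ
    rw [h6] at hμc
    have h7 : τ c = c * zC := hμc
    rw [(hτZ c).1 hc] at h7
    exact hzC1 (left_eq_mul.1 h7)

end Quarter

end Cfsg.Agent.H602.Small
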