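import Mathlib
import Cfsg.Agent.H602.Small.Inv

/-!
# Fusion in minimal nonabelian groups of order 16

`S` of order 16 with commutator subgroup `{1, z}`, `x ∈ S` with `x * x ∉ {1, z}`.
* `relIndex_Z_sixteen`: `|S : Z(S)| = 4`;
* `exists_seven`: there are seven nontrivial elements of `S`, pairwise not conjugate in a saturated
  fusion system over `S`.
-/

set_option autoImplicit false
set_option linter.unusedSectionVars false

namespace Cfsg.Agent.H602.Small

open Cfsg Cfsg.FusionSystem Cfsg.Agent.H802 Cfsg.Agent.H617.FusInv Cfsg.Agent.H617.FusTwo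
open Cfsg.Agent.H617.FusFour Cfsg.Agent.H617.FusMain

variable {Ω : Type*} [Group Ω] {S : Subgroup Ω}

theorem relIndex_Z_sixteen [Finite S] (hna : Z S ≠ S) (hE : Nat.card (E S) = 2)
    (h16 : Nat.card S = 16) : (Z S).relIndex S = 4 ∧ Nat.card (Z S) = 4 := by
  obtain ⟨x, hx, hxZ⟩ := exists_not_mem_Z hna
  obtain ⟨y, hy, hyC⟩ := exists_not_mem_C hx hxZ
  have hyZ : y ∉ Z S := fun h => hyC (Z_le_C hx h)
  have hxC : x ∉ C S y := fun h => hyC (mem_C.2 ⟨hy, (mem_C.1 h).2.symm⟩)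
  have h1 := relIndex_C_two hna hE hx hxZ
  have h2 := relIndex_C_two hna hE hy hyZ
  obtain ⟨K, hK⟩ : ∃ K, K = C S x ⊓ C S y := ⟨_, rfl⟩
  have hKx : K ≤ C S x := hK ▸ inf_le_left
  have hKy : K ≤ C S y := hK ▸ inf_le_right
  have hKS : K ≤ S := hKx.trans (C_le x)
  have hKrel : K.relIndex S ≤ 4 := by
    rw [hK]
    refine (Subgroup.relIndex_inf_le).trans ?_
    rw [h1, h2]
  have h3 := Subgroup.relIndex_mul_relIndex K (C S x) S hKx (C_le x)
  rw [h1] at h3
  have hKCx : K.relIndex (C S x) ≠ 1 := fun h =>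
    hxC (hKy (Subgroup.relIndex_eq_one.1 h (self_mem_C hx)))
  have hcS := card_eq_mul_relIndex hKS
  have hKrel' : K.relIndex (C S x) = 2 := by
    have h4 : K.relIndex (C S x) ≠ 0 := by
      intro h
      rw [h, zero_mul] at h3
      rw [← h3, mul_zero, h16] at hcS
      omega
    omega
  have hK4 : Nat.card K = 4 := by
    rw [hKrel'] at h3
    rw [← h3, h16] at hcS
    omega
  have hZK : Z S ≤ K := by
    rw [hK]
    exact le_inf (Z_le_C hx) (Z_le_C hy)
  have hKab : ∀ a ∈ K, ∀ b ∈ K, a * b = b * a := by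
    have hp : Fact (Nat.Prime 2) := ⟨Nat.prime_two⟩
    have h5 := IsPGroup.isMulCommutative_of_card_eq_prime_sq (p := 2) (G := K)
      (by rw [hK4]; norm_num)
    intro a ha b hb
    exact congrArg Subtype.val (h5.is_comm.comm ⟨a, ha⟩ ⟨b, hb⟩)
  have hCx : ∀ s ∈ C S x, ∀ k ∈ K, s * k = k * s := by
    intro s hs k hk
    by_cases hsK : s ∈ K
    · exact hKab s hsK k hk
    · have h4 := inv_mul_mem_of_relIndex_two hKrel' (self_mem_C hx) hs
        (fun h => hxC (hKy h)) hsK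
      have h5 := hKab _ h4 k hk
      have h6 := (mem_C.1 (hKx hk)).2
      calc s * k = x * ((x⁻¹ * s) * k) := by group
        _ = x * k * (x⁻¹ * s) := by rw [h5]; group
        _ = k * s := by rw [h6]; group
  have hKZ : K ≤ Z S := by
    intro k hk
    refine mem_Z.2 ⟨hKS hk, fun s hs => ?_⟩
    by_cases hsC : s ∈ C S x
    · exact hCx s hsC k hk
    · have h4 := inv_mul_mem_of_relIndex_two h1 hy hs hyC hsC
      have h5 := hCx _ h4 k hk
      have h6 := (mem_C.1 (hKy hk)).2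
      calc s * k = y * ((y⁻¹ * s) * k) := by group
        _ = y * k * (y⁻¹ * s) := by rw [h5]; group
        _ = k * s := by rw [h6]; group
  have hKe : Z S = K := le_antisymm hZK hKZ
  rw [hKe]
  refine ⟨?_, hK4⟩
  rw [h16, hK4] at hcS
  omega

section Main

variable [Finite S] (hS : IsPGroup 2 S) {F : FusionSystem S} (hF : F.IsSaturated 2)
  (h16 : Nat.card S = 16) (h4 : (Z S).relIndex S = 4) (hZ4 : Nat.card (Z S) = 4)
  {z : Ω} (hz : z ∈ Z S) (hz2 : z * z = 1) (hz1 : z ≠ 1)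
  (hcom : ∀ a ∈ S, ∀ b ∈ S, a * b = b * a ∨ a * b = b * a * z)

include h4 in
theorem C_cases {x y g : Ω} (hx : x ∈ S) (hy : y ∈ S) (hyx : y ∉ C S x) (hg : g ∈ S)
    (hgy : g ∉ C S y) : C S g = C S x ∨ C S g = C S (x * y) := by
  have hyZ : y ∉ Z S := fun h => hyx (Z_le_C hx h)
  have hxy : x ∉ C S y := fun h => hyx (mem_C.2 ⟨hy, (mem_C.1 h).2.symm⟩)
  have hxZ : x ∉ Z S := fun h => hxy (Z_le_C hy h)
  obtain ⟨hr1, hr2⟩ := relIndex_C h4 hy hyZ
  have hgZ : g ∉ Z S := fun h => hgy (Z_le_C hy h)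
  have h1 := inv_mul_mem_of_relIndex_two hr2 hx hg hxy hgy
  by_cases h2 : x⁻¹ * g ∈ Z S
  · left
    have h3 : g ∈ C S x := by
      have h5 : g = x * (x⁻¹ * g) := by group
      rw [h5]
      exact (C S x).mul_mem (self_mem_C hx) (Z_le_C hx h2)
    exact (C_eq_of_mem h4 hx hxZ h3 hgZ).symm
  · right
    have h3 := inv_mul_mem_of_relIndex_two hr1 (self_mem_C hy) h1 hyZ h2
    have hxyS : x * y ∈ S := S.mul_mem hx hy
    have h5 : g = x * y * (y⁻¹ * (x⁻¹ * g)) := by group
    have h6 : g ∈ C S (x * y) := by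
      rw [h5]
      exact (C S (x * y)).mul_mem (self_mem_C hxyS) (Z_le_C hxyS h3)
    have h7 : x * y ∉ Z S := by
      intro h
      apply hgZ
      rw [h5]
      exact (Z S).mul_mem h h3
    exact (C_eq_of_mem h4 hxyS h7 h6 hgZ).symm

include h16 h4 in
theorem card_C {g : Ω} (hg : g ∈ S) (hgZ : g ∉ Z S) : Nat.card (C S g) = 8 := by
  have h1 := card_eq_mul_relIndex (C_le (S := S) g)
  rw [h16, (relIndex_C h4 hg hgZ).2] at h1
  omega

include hS hF h16 h4 hz hz2 hz1 hcom in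
/-- The maps of the system are induced by `S`, or act on `C_S(y)`. -/
theorem aut_cases {x y : Ω} (hx : x ∈ S) (hy : y ∈ S) (hyx : y ∉ C S x) (hxx : x * x ≠ 1)
    (hxz : x * x ≠ z) (hxy : ∃ h ∈ C S (x * y), h * h ≠ 1) {Q : Subgroup Ω}
    (hQc : F.IsCentric Q) {α : MulAut Q} (hα : α ∈ F.autGroup Q) :
    Q = C S y ∨ ∃ s ∈ S, ∀ r : Q, ((α r : Q) : Ω) = s * r * s⁻¹ := by
  have hp : Fact (Nat.Prime 2) := ⟨Nat.prime_two⟩
  have hyZ : y ∉ Z S := fun h => hyx (Z_le_C hx h)
  have hna : Z S ≠ S := fun h => hyZ (by rw [h]; exact hy)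
  have hZQ := Z_le_of_isCentric hQc
  have hQS : Q ≤ S := hQc.1
  by_cases hQe : Q = S
  · right
    subst hQe
    refine exists_conj_of_isPGroup_aut hS hF le_rfl Subgroup.le_normalizer
      (isPGroup_two_of_odd fun α hα => ?_) hα
    refine aut_eq_one_of_sixteen (z := ⟨z, Z_le hz⟩) h16 (Subtype.ext hz2)
      (fun h => hz1 (congrArg Subtype.val h)) (fun d => Subtype.ext ((mem_Z.1 hz).2 d d.2))
      (fun a b => ?_) ?_ (x := ⟨x, hx⟩) (fun h => hxx (congrArg Subtype.val h))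
      (fun h => hxz (congrArg Subtype.val h)) (pow_orderOf_eq_one α) hα
    · rcases hcom a a.2 b b.2 with h | h
      · exact Or.inl (Subtype.ext h)
      · exact Or.inr (Subtype.ext h)
    · exact ⟨⟨x, hx⟩, ⟨y, hy⟩, fun h => hyx (mem_C.2 ⟨hy, congrArg Subtype.val h⟩)⟩
  · obtain ⟨g, hgQ, hgZ⟩ : ∃ g ∈ Q, g ∉ Z S := by
      by_contra hno
      push Not at hno
      have h1 : Q = Z S := le_antisymm hno hZQ
      apply hna
      refine le_antisymm Z_le ?_
      have h2 := hQc.2 Q (isConj_refl F hQS)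
      intro s hs
      rw [← h1]
      refine h2 ⟨hs, Subgroup.mem_centralizer_iff.2 fun q hq => ?_⟩
      rw [h1] at hq
      exact ((mem_Z.1 hq).2 s hs).symm
    have hg : g ∈ S := hQS hgQ
    have hQC : Q = C S g := eq_C_of_between h4 hZQ hQS hgQ hgZ hQe
    by_cases hgy : g ∈ C S y
    · left
      rw [hQC]
      exact (C_eq_of_mem h4 hy hyZ hgy hgZ).symm
    · right
      subst hQC
      obtain ⟨h, hh, hhh⟩ : ∃ h ∈ C S g, h * h ≠ 1 := by
        rcases C_cases h4 hx hy hyx hg hgy with h1 | h1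
        · rw [h1]
          exact ⟨x, self_mem_C hx, hxx⟩
        · rw [h1]
          exact hxy
      have hfinC : Finite (C S g) := finite_of_le (C_le g)
      refine exists_conj_of_isPGroup_aut hS hF (C_le g)
        (le_normalizer_of_relIndex_two (C_le g) (relIndex_C h4 hg hgZ).2)
        (isPGroup_two_of_odd fun α hα => ?_) hα
      exact aut_eq_one_of_eight (card_C h16 h4 hg hgZ)
        (fun a b => Subtype.ext (comm_of_mem_C h4 hg hgZ a.2 b.2)) (x := ⟨h, hh⟩)
        (fun h => hhh (congrArg Subtype.val h)) (pow_orderOf_eq_one α) hα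

include hS hF h16 h4 hz hz2 hz1 hcom in
/-- Invariant sets. -/
theorem mem_iff_of_inv {x y : Ω} (hx : x ∈ S) (hy : y ∈ S) (hyx : y ∉ C S x) (hxx : x * x ≠ 1)
    (hxz : x * x ≠ z) (hxy : ∃ h ∈ C S (x * y), h * h ≠ 1) (X : Set Ω)
    (hX : ∀ s ∈ S, ∀ g ∈ S, g ∈ X → s * g * s⁻¹ ∈ X)
    (hX0 : ∀ α ∈ F.autGroup (C S y), ∀ w : C S y, (w : Ω) ∈ X → ((α w : C S y) : Ω) ∈ X)
    {u v : Ω} (huv : F.IsConjElt u v) : u ∈ X ↔ v ∈ X := by
  have hp : Fact (Nat.Prime 2) := ⟨Nat.prime_two⟩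
  refine mem_iff_of_isConjElt hS hF X (fun Q hQn hQc α hα w => ?_) huv
  have hfin : Finite Q := finite_of_le hQn.1
  rcases aut_cases hS hF h16 h4 hz hz2 hz1 hcom hx hy hyx hxx hxz hxy hQc hα with h | ⟨s, hs, h⟩
  · subst h
    exact mem_iff_of_maps (fun w hw => hX0 α hα w hw) w
  · refine mem_iff_of_maps (fun w hw => ?_) w
    rw [h]
    exact hX s hs w (hQn.1 w.2) hw

include hS hF h16 h4 hz hz2 hz1 hcom in
theorem mem_pair_iff {x y : Ω} (hx : x ∈ S) (hy : y ∈ S) (hyx : y ∉ C S x) (hxx : x * x ≠ 1)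
    (hxz : x * x ≠ z) (hxy : ∃ h ∈ C S (x * y), h * h ≠ 1) {u v w : Ω} (hu : u ∈ S)
    (huy : u ∉ C S y) (hvw : F.IsConjElt v w) :
    v ∈ ({u, u * z} : Set Ω) ↔ w ∈ ({u, u * z} : Set Ω) := by
  have hyZ : y ∉ Z S := fun h => hyx (Z_le_C hx h)
  have h1 := mem_iff_of_inv hS hF h16 h4 hz hz2 hz1 hcom hx hy hyx hxx hxz hxy
    ({u, u * z} : Set Ω) ?_ ?_ hvw
  · exact h1
  · have hconj : ∀ s ∈ S, s * u * s⁻¹ = u ∨ s * u * s⁻¹ = u * z := by
      intro s hs
      rcases hcom s hs u hu with h | h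
      · left; rw [h, mul_inv_cancel_right]
      · right
        rw [h, mul_assoc u s z, (mem_Z.1 hz).2 s hs, mul_assoc, mul_assoc, mul_inv_cancel,
          mul_one]
    have hsz : ∀ s ∈ S, s * z * s⁻¹ = z := fun s hs => by
      rw [(mem_Z.1 hz).2 s hs, mul_inv_cancel_right]
    rintro s hs g hg (rfl | rfl)
    · exact hconj s hs
    · have h2 : s * (u * z) * s⁻¹ = s * u * s⁻¹ * (s * z * s⁻¹) := by group
      rw [h2, hsz s hs]
      rcases hconj s hs with h | h
      · right; rw [h]; rfl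
      · left; rw [h, mul_assoc, hz2, mul_one]
  · intro α hα w hw
    exfalso
    rcases hw with h | h
    · exact huy (h ▸ w.2)
    · apply huy
      have h2 : u = (w : Ω) * z := by
        rw [h, mul_assoc, hz2, mul_one]
      rw [h2]
      exact (C S y).mul_mem w.2 (Z_le_C hy hz)

include hS hF h16 h4 hZ4 hz hz2 hz1 hcom in
theorem eq_of_conj_central {x y : Ω} (hx : x ∈ S) (hy : y ∈ S) (hyx : y ∉ C S x)
    (hxx : x * x ≠ 1) (hxz : x * x ≠ z) (hxy : ∃ h ∈ C S (x * y), h * h ≠ 1) {u v : Ω}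
    (hu : u ∈ Z S) (hv : v ∈ Z S) (huv : F.IsConjElt u v) : v = u := by
  have hyZ : y ∉ Z S := fun h => hyx (Z_le_C hx h)
  have hCS : C S y ≤ S := C_le y
  have h1 := mem_iff_of_inv hS hF h16 h4 hz hz2 hz1 hcom hx hy hyx hxx hxz hxy
    ({w | ∃ α ∈ F.autGroup (C S y), ((α ⟨u, Z_le_C hy hu⟩ : C S y) : Ω) = w} : Set Ω) ?_ ?_ huv
  · obtain ⟨α, hα, hαu⟩ := h1.1 ⟨1, Subgroup.one_mem _, rfl⟩
    have h2 := aut_central_fixed hS hF h4 hz hz2 hcom hZ4 hz1 hy hyZ hα
      (c := ⟨u, Z_le_C hy hu⟩) hu (by rw [hαu]; exact hv)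
    rw [h2] at hαu
    exact hαu.symm
  · rintro s hs g hg ⟨α, hα, rfl⟩
    have hnorm := le_normalizer_of_relIndex_two hCS (relIndex_C h4 hy hyZ).2
    obtain ⟨τ, hτF, -, hτ⟩ := exists_conjAut_mem (F := F) hCS hs (hnorm hs)
    exact ⟨τ * α, Subgroup.mul_mem _ hτF hα, by rw [MulAut.mul_apply, hτ]⟩
  · rintro β hβ w ⟨α, hα, hw⟩
    refine ⟨β * α, Subgroup.mul_mem _ hβ hα, ?_⟩
    rw [MulAut.mul_apply]
    have h2 : α ⟨u, Z_le_C hy hu⟩ = w := Subtype.ext hw
    rw [h2]

omit [Finite S] in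
include h4 hz hz2 hcom in
theorem exists_y {x : Ω} (hx : x ∈ S) (hxZ : x ∉ Z S) (hxz : x * x ≠ z) :
    ∃ y ∈ S, y ∉ C S x ∧ ∃ h ∈ C S (x * y), h * h ≠ 1 := by
  obtain ⟨y, hy, hyx⟩ := exists_not_mem_C hx hxZ
  have hxxZ : x * x ∈ Z S := sq_mem_Z h4 hx hxZ (self_mem_C hx)
  have hxyS : x * y ∈ S := S.mul_mem hx hy
  by_cases h1 : ∃ h ∈ C S (x * y), h * h ≠ 1
  · exact ⟨y, hy, hyx, h1⟩
  · push Not at h1
    have h2 := h1 _ (self_mem_C hxyS)
    have hcc := h1 _ (Z_le_C hxyS hxxZ)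
    have hxyx : x * y ∉ C S x := by
      intro h
      apply hyx
      have h3 : y = x⁻¹ * (x * y) := by group
      rw [h3]
      exact (C S x).mul_mem ((C S x).inv_mem (self_mem_C hx)) h
    refine ⟨x * y, hxyS, hxyx, x * (x * y), self_mem_C (S.mul_mem hx hxyS), ?_⟩
    have hyy : y * y ≠ 1 := by
      intro h
      apply hxz
      have h5 : x * y = y * x * z := by
        rcases hcom x hx y hy with h6 | h6
        · exact absurd (mem_C.2 ⟨hy, h6⟩) hyx
        · exact h6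
      have h6 := (mem_Z.1 hz).2 _ hxyS
      -- `x y x y = 1`
      have h7 : x * x * z = 1 := by
        have hzy := (mem_Z.1 hz).2 y hy
        have hzx := (mem_Z.1 hz).2 x hx
        calc x * x * z = x * (x * z) := by group
          _ = x * (z * x) := by rw [hzx]
          _ = x * (z * x) * (y * y) := by rw [h, mul_one]
          _ = x * z * (x * y) * y := by group
          _ = x * z * (y * x * z) * y := by rw [h5]
          _ = x * (z * y) * x * (z * y) := by group
          _ = x * (y * z) * x * (y * z) := by rw [hzy]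
          _ = x * y * (z * x) * y * z := by group
          _ = x * y * (x * z) * y * z := by rw [hzx]
          _ = x * y * x * (z * y) * z := by group
          _ = x * y * x * (y * z) * z := by rw [hzy]
          _ = (x * y * (x * y)) * (z * z) := by group
          _ = 1 := by rw [h2, hz2, one_mul]
      calc x * x = x * x * (z * z) := by rw [hz2, mul_one]
        _ = x * x * z * z := by group
        _ = z := by rw [h7, one_mul]
    intro h
    apply hyy
    have h5 := (mem_Z.1 hxxZ).2 y hy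
    calc y * y = (x * x * (x * x)) * (y * y) := by rw [hcc, one_mul]
      _ = x * x * (x * x * y) * y := by group
      _ = x * x * (y * (x * x)) * y := by rw [h5]
      _ = x * (x * y) * (x * (x * y)) := by group
      _ = 1 := h

include hS hF h16 h4 hZ4 hz hz2 hz1 hcom in
/-- Seven elements, pairwise not conjugate. -/
theorem exists_seven {x : Ω} (hx : x ∈ S) (hxx : x * x ≠ 1) (hxz : x * x ≠ z) :
    ∃ T : Finset Ω, T.card = 7 ∧ (∀ t ∈ T, t ∈ S ∧ t ≠ 1) ∧
      ∀ s ∈ T, ∀ t ∈ T, F.IsConjElt s t → s = t := by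
  classical
  -- `x` is not central
  have hxZ : x ∉ Z S := by
    intro h
    have hfinZ : (Z S : Set Ω).Finite := by
      have : Finite (Z S) := finite_of_le Z_le
      exact Set.toFinite _
    have hzx : z ≠ x := by
      rintro rfl
      exact hxx hz2
    have h1 : ({1, z, x, x * z, x * x} : Set Ω) ⊆ (Z S : Set Ω) := by
      rintro w (rfl | rfl | rfl | rfl | rfl)
      · exact one_mem _
      · exact hz
      · exact h
      · exact (Z S).mul_mem h hz
      · exact (Z S).mul_mem h h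
    have hx1 : x ≠ 1 := fun h5 => hxx (by rw [h5, one_mul])
    have h2 : Set.ncard ({1, z, x, x * z, x * x} : Set Ω) = 5 := by
      rw [Set.ncard_insert_of_notMem, Set.ncard_insert_of_notMem, Set.ncard_insert_of_notMem,
        Set.ncard_pair]
      · exact fun h5 => hzx (mul_left_cancel h5)
      · rintro (h5 | h5)
        · exact hz1 (left_eq_mul.1 h5)
        · exact hx1 (left_eq_mul.1 h5)
      · rintro (h5 | h5 | h5)
        · exact hzx h5
        · exact hx1 (right_eq_mul.1 h5)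
        · exact hxz h5.symm
      · rintro (h5 | h5 | h5 | h5)
        · exact hz1 h5.symm
        · exact hx1 h5.symm
        · apply hzx
          have h6 : x = z⁻¹ := eq_inv_of_mul_eq_one_left h5.symm
          rw [h6, inv_eq_of_mul_eq_one_right hz2]
        · exact hxx h5.symm
    have h3 := Set.ncard_le_ncard h1 hfinZ
    rw [h2] at h3
    have h5 : Set.ncard (Z S : Set Ω) = 4 := hZ4
    omega
  obtain ⟨y, hy, hyx, hxy⟩ := exists_y h4 hz hz2 hcom hx hxZ hxz
  have hyZ : y ∉ Z S := fun h => hyx (Z_le_C hx h)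
  have hxC : x ∉ C S y := fun h => hyx (mem_C.2 ⟨hy, (mem_C.1 h).2.symm⟩)
  obtain ⟨c, hc⟩ : ∃ c, c = x * x := ⟨_, rfl⟩
  have hcZ : c ∈ Z S := by rw [hc]; exact sq_mem_Z h4 hx hxZ (self_mem_C hx)
  have hc1 : c ≠ 1 := by rw [hc]; exact hxx
  have hcz : c ≠ z := by rw [hc]; exact hxz
  have hyc : y * c ∉ Z S := fun h => hyZ (by
    have h1 : y = y * c * c⁻¹ := by group
    rw [h1]
    exact (Z S).mul_mem h ((Z S).inv_mem hcZ))
  have hne : ∀ {u v : Ω}, u ∈ Z S → v ∉ Z S → u ≠ v := fun hu hv h => hv (h ▸ hu)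
  -- the first four
  let T0 : Finset Ω := {1, c, y, y * c}
  have hT0 : T0.card = 4 := by
    change ({1, c, y, y * c} : Finset Ω).card = 4
    rw [Finset.card_insert_of_notMem, Finset.card_insert_of_notMem, Finset.card_pair]
    · exact fun h => hc1 (left_eq_mul.1 h)
    · simp only [Finset.mem_insert, Finset.mem_singleton, not_or]
      exact ⟨hne hcZ hyZ, hne hcZ hyc⟩
    · simp only [Finset.mem_insert, Finset.mem_singleton, not_or]
      exact ⟨hc1.symm, hne (one_mem _) hyZ, hne (one_mem _) hyc⟩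
  have hT0C : ∀ q ∈ T0, q ∈ C S y := by
    intro q hq
    change q ∈ ({1, c, y, y * c} : Finset Ω) at hq
    simp only [Finset.mem_insert, Finset.mem_singleton] at hq
    rcases hq with rfl | rfl | rfl | rfl
    · exact one_mem _
    · exact Z_le_C hy hcZ
    · exact self_mem_C hy
    · exact (C S y).mul_mem (self_mem_C hy) (Z_le_C hy hcZ)
  have hcz' : c * z ≠ 1 := fun h => hcz (by
    rw [eq_inv_of_mul_eq_one_left h, inv_eq_of_mul_eq_one_right hz2])
  have hT0z : ∀ q ∈ T0, ∀ q' ∈ T0, q' ≠ q * z := by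
    intro q hq q' hq' h
    change q ∈ ({1, c, y, y * c} : Finset Ω) at hq
    change q' ∈ ({1, c, y, y * c} : Finset Ω) at hq'
    simp only [Finset.mem_insert, Finset.mem_singleton] at hq hq'
    have hyzZ : y * z ∉ Z S := fun h => hyZ (by
      have h1 : y = y * z * z⁻¹ := by group
      rw [h1]
      exact (Z S).mul_mem h ((Z S).inv_mem hz))
    have hyczZ : y * c * z ∉ Z S := fun h => hyZ (by
      have h1 : y = y * c * z * z⁻¹ * c⁻¹ := by group
      rw [h1]
      exact (Z S).mul_mem ((Z S).mul_mem h ((Z S).inv_mem hz)) ((Z S).inv_mem hcZ))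
    have hczZ : c * z ∈ Z S := (Z S).mul_mem hcZ hz
    rcases hq with rfl | rfl | rfl | rfl <;> rcases hq' with rfl | rfl | rfl | rfl
    · rw [one_mul] at h; exact hz1 h.symm
    · rw [one_mul] at h; exact hcz h
    · rw [one_mul] at h; exact hyZ (h ▸ hz)
    · rw [one_mul] at h; exact hyc (h ▸ hz)
    · exact hcz' h.symm
    · exact hz1 (left_eq_mul.1 h)
    · exact hyZ (h ▸ hczZ)
    · exact hyc (h ▸ hczZ)
    · exact hyzZ (h ▸ one_mem _)
    · exact hyzZ (h ▸ hcZ)
    · exact hz1 (left_eq_mul.1 h)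
    · exact hcz (mul_left_cancel h)
    · exact hyczZ (h ▸ one_mem _)
    · exact hyczZ (h ▸ hcZ)
    · rw [mul_assoc] at h
      exact hcz' (left_eq_mul.1 h)
    · exact hz1 (left_eq_mul.1 h)
  let T1 : Finset Ω := T0.image fun q => x * q
  let T2 : Finset Ω := {z, c, c * z}
  have hT1 : T1.card = 4 := by
    rw [← hT0]
    exact Finset.card_image_of_injective _ (mul_right_injective x)
  have hT2 : T2.card = 3 := by
    change ({z, c, c * z} : Finset Ω).card = 3
    rw [Finset.card_insert_of_notMem, Finset.card_pair]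
    · exact fun h => hz1 (left_eq_mul.1 h)
    · simp only [Finset.mem_insert, Finset.mem_singleton, not_or]
      exact ⟨hcz.symm, fun h => hc1 (right_eq_mul.1 h)⟩
  have hT2Z : ∀ t ∈ T2, t ∈ Z S ∧ t ≠ 1 := by
    intro t ht
    change t ∈ ({z, c, c * z} : Finset Ω) at ht
    simp only [Finset.mem_insert, Finset.mem_singleton] at ht
    rcases ht with rfl | rfl | rfl
    · exact ⟨hz, hz1⟩
    · exact ⟨hcZ, hc1⟩
    · exact ⟨(Z S).mul_mem hcZ hz, hcz'⟩
  have hT1m : ∀ t ∈ T1, ∃ q ∈ T0, t = x * q := by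
    intro t ht
    obtain ⟨q, hq, h⟩ := Finset.mem_image.1 ht
    exact ⟨q, hq, h.symm⟩
  have hT1S : ∀ t ∈ T1, t ∈ S ∧ t ∉ C S y := by
    intro t ht
    obtain ⟨q, hq, rfl⟩ := hT1m t ht
    refine ⟨S.mul_mem hx (C_le y (hT0C q hq)), fun h => hxC ?_⟩
    have h1 : x = x * q * q⁻¹ := by group
    rw [h1]
    exact (C S y).mul_mem h ((C S y).inv_mem (hT0C q hq))
  have hconj1 : ∀ s ∈ T1, ∀ t, F.IsConjElt s t → t = s ∨ t = s * z := fun s hs t hst =>
    (mem_pair_iff hS hF h16 h4 hz hz2 hz1 hcom hx hy hyx hxx hxz hxy (hT1S s hs).1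
      (hT1S s hs).2 hst).1 (Or.inl rfl)
  have hconj1' : ∀ t ∈ T1, ∀ s, F.IsConjElt s t → s = t ∨ s = t * z := fun t ht s hst =>
    (mem_pair_iff hS hF h16 h4 hz hz2 hz1 hcom hx hy hyx hxx hxz hxy (hT1S t ht).1
      (hT1S t ht).2 hst).2 (Or.inl rfl)
  refine ⟨T1 ∪ T2, ?_, ?_, ?_⟩
  · rw [Finset.card_union_of_disjoint, hT1, hT2]
    rw [Finset.disjoint_left]
    intro t ht1 ht2
    exact (hT1S t ht1).2 (Z_le_C hy (hT2Z t ht2).1)
  · intro t ht
    rcases Finset.mem_union.1 ht with h | h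
    · exact ⟨(hT1S t h).1, fun h1 => (hT1S t h).2 (by rw [h1]; exact one_mem _)⟩
    · exact ⟨Z_le (hT2Z t h).1, (hT2Z t h).2⟩
  · intro s hs t ht hst
    rcases Finset.mem_union.1 hs with h | h <;> rcases Finset.mem_union.1 ht with h' | h'
    · rcases hconj1 s h t hst with h1 | h1
      · exact h1.symm
      · exfalso
        obtain ⟨q, hq, rfl⟩ := hT1m s h
        obtain ⟨q', hq', rfl⟩ := hT1m t h'
        rw [mul_assoc] at h1
        exact hT0z q hq q' hq' (mul_left_cancel h1)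
    · exfalso
      have h2 := (hT1S s h).2
      rcases hconj1 s h t hst with h1 | h1
      · apply h2; rw [← h1]; exact Z_le_C hy (hT2Z t h').1
      · apply h2
        have h3 : s = t * z := by rw [h1, mul_assoc, hz2, mul_one]
        rw [h3]
        exact (C S y).mul_mem (Z_le_C hy (hT2Z t h').1) (Z_le_C hy hz)
    · exfalso
      have h2 := (hT1S t h').2
      rcases hconj1' t h' s hst with h1 | h1
      · apply h2; rw [← h1]; exact Z_le_C hy (hT2Z s h).1
      · apply h2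
        have h3 : t = s * z := by rw [h1, mul_assoc, hz2, mul_one]
        rw [h3]
        exact (C S y).mul_mem (Z_le_C hy (hT2Z s h).1) (Z_le_C hy hz)
    · exact (eq_of_conj_central hS hF h16 h4 hZ4 hz hz2 hz1 hcom hx hy hyx hxx hxz hxy
        (hT2Z s h).1 (hT2Z t h').1 hst).symm

end Main

end Cfsg.Agent.H602.Small
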