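import Mathlib
import Cfsg.Agent.H602.Small.InvSixteen
import Cfsg.Agent.H617.OlssonMain

/-!
# 2-blocks with minimal nonabelian defect groups of order 16

* `rank_add_le_finset`: `l(B) + |T| ≤ k(B)` for a set `T` of pairwise nonfused nontrivial elements;
* `rank_le_three_of_sixteen_of_sq`: `l(B) ≤ 3` if `|D| = 16`, `|D : D'| = 8` and `D / D'` is not
  elementary abelian.
-/

set_option autoImplicit false
set_option linter.unusedSectionVars false

namespace Cfsg.Agent.H602.Small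

open Cfsg Cfsg.FusionSystem Cfsg.Agent.H617.FusTwo Cfsg.Agent.H617.FusFour
open Cfsg.Agent.H617.FusMain Cfsg.Agent.H613.SubFus

universe u

variable {G : Type u} [Group G] [Finite G] {M : Ideal AlgInt} {B : Set (IrrCharacter G)}

/-- Pairwise nonfused elements. -/
theorem rank_add_le_finset (hM : IsPModular 2 M) {a : BrauerPairIdx G}
    (hmax : IsMaximalBrauerPair 2 M B a.1 a.2) (T : Finset G) (hT : ∀ t ∈ T, t ∈ a.1 ∧ t ≠ 1)
    (hinj : ∀ s ∈ T, ∀ t ∈ T, Fus 2 M a s t → s = t) :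
    blockRank 2 B + T.card ≤ Nat.card B := by
  refine rank_add_le hM hmax (fun i : Fin T.card => ((T.equivFin.symm i : T) : G))
    (fun i => (hT _ (T.equivFin.symm i).2).1) (fun i => (hT _ (T.equivFin.symm i).2).2) ?_
  intro i j h
  have h1 := hinj _ (T.equivFin.symm i).2 _ (T.equivFin.symm j).2 h
  exact T.equivFin.symm.injective (Subtype.ext h1)

/-- The commutator subgroup of order two. -/
theorem exists_z_comm {D : Subgroup G} (hDp : IsPGroup 2 D) (hE : Nat.card (E D) = 2)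
    (hna : Z D ≠ D) :
    ∃ z ∈ Z D, z * z = 1 ∧ z ≠ 1 ∧ (∀ a ∈ D, ∀ b ∈ D, a * b = b * a ∨ a * b = b * a * z) ∧
      ∀ w : D, (w : G) = z → w ∈ commutator D := by
  obtain ⟨z, hz, hz2, hz1, hcom⟩ := exists_z hDp hE
  refine ⟨z, hz, hz2, hz1, hcom, fun w hw => ?_⟩
  obtain ⟨a, b, ha, hb, hab⟩ : ∃ a b, ∃ (_ : a ∈ D) (_ : b ∈ D), a * b ≠ b * a := by
    by_contra hno
    push Not at hno
    exact hna (Z_eq_of_comm fun a ha b hb => hno a b ha hb)
  have h1 : a * b = b * a * z := (hcom a ha b hb).resolve_left hab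
  have h2 : w = (⟨a, ha⟩ : D)⁻¹ * (⟨b, hb⟩ : D)⁻¹ * (⟨a, ha⟩ : D)⁻¹⁻¹ * (⟨b, hb⟩ : D)⁻¹⁻¹ := by
    apply Subtype.ext
    rw [hw]
    change z = a⁻¹ * b⁻¹ * a⁻¹⁻¹ * b⁻¹⁻¹
    have h3 : z = (b * a)⁻¹ * (a * b) := by rw [h1]; group
    rw [h3]
    group
  rw [h2]
  exact Subgroup.commutator_mem_commutator (Subgroup.mem_top _) (Subgroup.mem_top _)

/-- **Minimal nonabelian defect groups of order 16.** -/
theorem rank_le_three_of_sixteen_of_sq (hM : IsPModular 2 M) (hB : IsPBlock M B)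
    {D : Subgroup G} (hD : IsDefectGroup 2 M B D) (h16 : Nat.card D = 16)
    (hidx : (commutator D).index = 8) {x : D} (hx : x * x ∉ commutator D) :
    blockRank 2 B ≤ 3 := by
  classical
  have hp2 : Fact (Nat.Prime 2) := ⟨Nat.prime_two⟩
  have := Fintype.ofFinite G
  have := Cfsg.Agent.Blocks.Local.isPrime_of_isPModular hM
  have hDp : IsPGroup 2 D := Cfsg.Agent.Blocks.Basic.isPGroup_of_isDefectGroup hD
  have hE : Nat.card (E D) = 2 := by
    have h1 := card_E_mul (S := D)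
    rw [hidx, h16] at h1
    omega
  have hna : Z D ≠ D := by
    intro h
    have h1 : E D ≤ ⊥ := E_le_of_comm fun a ha b hb => by
      rw [Subgroup.mem_bot]
      have h2 : b ∈ Z D := by rw [h]; exact hb
      rw [(mem_Z.1 h2).2 a ha]
      group
    rw [le_bot_iff.1 h1, Subgroup.card_bot] at hE
    norm_num at hE
  obtain ⟨z, hz, hz2, hz1, hcom, hzc⟩ := exists_z_comm hDp hE hna
  obtain ⟨h4, hZ4⟩ := relIndex_Z_sixteen hna hE h16
  have hxx : (x : G) * x ≠ 1 := by
    intro h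
    apply hx
    have h1 : x * x = 1 := Subtype.ext h
    rw [h1]
    exact one_mem _
  have hxz : (x : G) * x ≠ z := fun h => hx (hzc (x * x) h)
  obtain ⟨e, he⟩ := Cfsg.Agent.H649.exists_pair_of_isDefectGroup hM hB hD
  have hmax' := Cfsg.Agent.H644.isMaximalBrauerPair_of_isDefectGroup hM he hD
  obtain ⟨F, hF, hsat⟩ := Cfsg.Agent.S4677.result 2 M hM B D e hmax'
  let a : BrauerPairIdx G := ⟨D, e⟩
  have hmax : IsMaximalBrauerPair 2 M B a.1 a.2 := hmax'
  obtain ⟨T, hT7, hT, hTF⟩ := exists_seven hDp hsat h16 h4 hZ4 hz hz2 hz1 hcom x.2 hxx hxz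
  have h1 := rank_add_le_finset hM hmax T hT (fun s hs t ht h =>
    hTF s hs t ht ((isConjElt_iff (a := a) hM hmax hF (hT s hs).1 (hT t ht).1).2 h))
  rw [hT7] at h1
  have hzD : z ∈ a.1 := Z_le hz
  have hzcen : ∀ d ∈ a.1, d * z = z * d := (mem_Z.1 hz).2
  -- the rank at `z`
  have h2 : blockRank 2 (bel 2 M a z).2 = 1 := by
    obtain ⟨K, _, _, b, D', f, hb, hD', hf, hker, hrank⟩ := exists_quot hM hmax hzD hzcen
    rw [← hrank]
    have hfz : f ⟨z, hzD⟩ = 1 := (hker _).2 (Subgroup.mem_zpowers z)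
    have hab : ∀ u ∈ D', ∀ v ∈ D', u * v = v * u := by
      intro u hu v hv
      obtain ⟨u', hu'⟩ := hf ⟨u, hu⟩
      obtain ⟨v', hv'⟩ := hf ⟨v, hv⟩
      have h3 : f u' * f v' = f v' * f u' := by
        rcases hcom u' u'.2 v' v'.2 with h | h
        · rw [← map_mul, ← map_mul]
          congr 1
          exact Subtype.ext h
        · have h5 : u' * v' = v' * u' * ⟨z, hzD⟩ := Subtype.ext h
          rw [← map_mul, h5, map_mul, hfz, mul_one, map_mul]
      rw [hu', hv'] at h3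
      exact congrArg Subtype.val h3
    have hfin : Finite a.1 := inferInstance
    have hcard : Nat.card D' = 8 := by
      have h3 : f.ker = Subgroup.zpowers (⟨z, hzD⟩ : a.1) := by
        ext w
        rw [MonoidHom.mem_ker, hker, Subgroup.mem_zpowers_iff, Subgroup.mem_zpowers_iff]
        constructor
        · rintro ⟨k, hk⟩
          exact ⟨k, Subtype.ext hk⟩
        · rintro ⟨k, hk⟩
          exact ⟨k, congrArg Subtype.val hk⟩
      have h5 : orderOf (⟨z, hzD⟩ : a.1) = 2 := by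
        rw [Subgroup.orderOf_mk]
        exact orderOf_eq_prime (by rw [pow_two]; exact hz2) hz1
      have h6 : Nat.card (a.1 ⧸ f.ker) = Nat.card D' :=
        Nat.card_congr (QuotientGroup.quotientKerEquivOfSurjective f hf).toEquiv
      have h7 := Subgroup.card_eq_card_quotient_mul_card_subgroup f.ker
      rw [h6, h3, Nat.card_zpowers, h5] at h7
      have h8 : Nat.card a.1 = 16 := h16
      omega
    refine rank_one_of_abelian_eight hM hb hD' hab hcard (x := (f x : K)) (f x).2 ?_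
    intro h
    have h3 : f (x * x) = 1 := by
      rw [map_mul]
      exact Subtype.ext h
    rw [hker] at h3
    obtain ⟨k, hk⟩ := Subgroup.mem_zpowers_iff.1 h3
    have hz2' : z ^ (2 : ℤ) = 1 := by
      rw [show (2 : ℤ) = 1 + 1 by norm_num, zpow_add, zpow_one, hz2]
    rcases Int.even_or_odd k with ⟨m, rfl⟩ | ⟨m, rfl⟩
    · rw [← two_mul, zpow_mul, hz2', one_zpow] at hk
      exact hxx hk.symm
    · rw [zpow_add, zpow_mul, zpow_one, hz2', one_zpow, one_mul] at hk
      exact hxz hk.symm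
  have h3 := card_zero_add_le_bel hM hmax hzD hzcen h2
  have h5 := Cfsg.Agent.H617.OlssonMain.bound_nonabelian hM hB hD hna (by rw [h16]; norm_num)
  rw [hidx] at h5
  have h6 : Nat.card a.1 = 16 := h16
  omega

end Cfsg.Agent.H602.Small
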